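import Cfsg.Agent.S2928.Quad

/-!
The family of Klein quadruples of a primitive group without three-cycles is the affine space of
order eight.
-/

set_option autoImplicit false

namespace Cfsg.Agent.S2928

open Equiv Equiv.Perm MulAction

/-- Bitwise sum on eight points. -/
def xr (a b : Fin 8) : Fin 8 := ⟨(a.val ^^^ b.val) % 8, Nat.mod_lt _ (by norm_num)⟩

/-- The planes of the affine space on eight points. -/
def IsPlane (Z : Finset (Fin 8)) : Prop :=
  Z.card = 4 ∧ ∀ k : Fin 3, Even (Z.filter fun i : Fin 8 => i.val.testBit k.val = true).card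

instance : DecidablePred IsPlane := fun Z => by unfold IsPlane; infer_instance

/-- The seven planes missing the last point. -/
def Missing (Z : Finset (Fin 8)) : Prop := IsPlane Z ∧ (7 : Fin 8) ∉ Z

instance : DecidablePred Missing := fun Z => by unfold Missing; infer_instance

theorem missing_list : ∀ Z, Missing Z → Z = {0, 1, 2, 3} ∨ Z = {0, 1, 4, 5} ∨ Z = {0, 2, 4, 6} ∨
    Z = {2, 3, 4, 5} ∨ Z = {1, 3, 4, 6} ∨ Z = {1, 2, 5, 6} ∨ Z = {0, 3, 5, 6} := by
  decide +kernel

/-- Sets of points not containing the last one that meet every missing plane evenly. -/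
theorem trace_cases : ∀ X : Finset (Fin 8), (7 : Fin 8) ∉ X → X.card ≤ 4 → X.Nonempty →
    (∀ L, Missing L → Even (X ∩ L).card) → Missing X ∨ (X.card = 3 ∧ IsPlane (insert 7 X)) := by
  decide +kernel

theorem plane_inter : ∀ X Y : Finset (Fin 8), IsPlane X → IsPlane Y → (7 : Fin 8) ∈ X → (7 : Fin 8) ∈ Y →
    X ≠ Y → (X.erase 7 ∩ Y.erase 7).card = 1 := by
  decide +kernel

theorem plane_gen : ∀ Z X : Finset (Fin 8), IsPlane Z → IsPlane X → (7 : Fin 8) ∈ X → (7 : Fin 8) ∈ Z →
    Z = X ∨ ∃ M, Missing M ∧ (X ∩ M).card = 2 ∧ Z = (X \ M) ∪ (M \ X) := by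
  decide +kernel

theorem even_planes : ∀ X : Finset (Fin 8), X.card = 4 → (∀ L, IsPlane L → Even (X ∩ L).card) → IsPlane X := by
  decide +kernel

theorem plane_seven_mem : ∀ i : Fin 8, ∃ Z, IsPlane Z ∧ (7 : Fin 8) ∈ Z ∧ i ∈ Z := by decide +kernel

theorem plane_quad : ∀ x y : Fin 8, x ≠ 0 → y ≠ 0 → x ≠ y → IsPlane {0, x, y, xr x y} := by decide +kernel

theorem plane_last : ∀ a b c d : Fin 8, IsPlane {a, b, c, d} → d = xr (xr b c) a := by decide +kernel

theorem xr_self_left : ∀ a b : Fin 8, xr a (xr a b) = b := by decide +kernel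

theorem xr_invol (c : Fin 8) : Function.Involutive fun i => xr i c := by
  revert c
  unfold Function.Involutive
  decide +kernel

/-- A translation. -/
def xorPerm (c : Fin 8) : Perm (Fin 8) := (xr_invol c).toPerm

/-- A translation restricted to a set of points. -/
def xorOn (A : Finset (Fin 8)) (c : Fin 8) (i : Fin 8) : Fin 8 := if i ∈ A then xr i c else i

theorem split_translation : ∀ c : Fin 8, c ≠ 0 → ∃ A, IsPlane A ∧ IsPlane Aᶜ ∧ (∀ i ∈ A, xr i c ∈ A) := by
  decide +kernel

variable {α : Type*} [DecidableEq α] [Fintype α] {K : Subgroup (Perm α)}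

/-- The whole configuration. -/
theorem octet (hK : IsPreprimitive K α) (hno : ∀ g ∈ K, ¬ IsThreeCycle g) (h8 : 8 ≤ Fintype.card α)
    {Q₀ : Finset α} (hQ₀ : IsQ K Q₀) :
    ∃ φ : Fin 8 ≃ α, (∀ c, φ.permCongr (xorPerm c) ∈ K) ∧
      ∀ g ∈ K, ∀ x y, φ.symm (g (φ (xr x y))) =
        xr (xr (φ.symm (g (φ x))) (φ.symm (g (φ y)))) (φ.symm (g (φ 0))) := by
  classical
  have hev := @inter_even α _ _ K hno
  -- points are separated
  have hsep : ∀ x y : α, x ≠ y → ∃ Q, IsQ K Q ∧ ¬ (x ∈ Q ↔ y ∈ Q) := by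
    have hrel := prim_rel hK (r := fun x y => ∀ Q, IsQ K Q → (x ∈ Q ↔ y ∈ Q))
      ⟨fun x Q _ => Iff.rfl, fun h Q hQ => (h Q hQ).symm, fun h h' Q hQ => (h Q hQ).trans (h' Q hQ)⟩
      (fun g hg x y hxy Q hQ => by
        have := hxy _ (hQ.conj (K.inv_mem hg))
        simpa [Finset.mem_map_equiv, Equiv.Perm.inv_def] using this)
    rcases hrel with h | h
    · intro x y hxy
      by_contra hc
      push Not at hc
      exact hxy (h x y fun Q hQ => hc Q hQ)
    · exfalso
      obtain ⟨x, hx⟩ := Finset.card_pos.1 (show 0 < Q₀.card by rw [hQ₀.1]; norm_num)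
      have hall : Q₀ = Finset.univ := Finset.eq_univ_iff_forall.2 fun y => (h x y Q₀ hQ₀).1 hx
      have := hQ₀.1
      rw [hall, Finset.card_univ] at this
      omega
  -- closed sets
  have hclosed : ∀ C : Finset α, C.Nonempty → (∀ Q, IsQ K Q → (Q ∩ C).Nonempty → Q ⊆ C) → C = Finset.univ := by
    intro C hC hcl
    have hrel := prim_rel hK
      (r := fun x y => ∀ D : Finset α, (∀ Q, IsQ K Q → (Q ∩ D).Nonempty → Q ⊆ D) → (x ∈ D ↔ y ∈ D))
      ⟨fun x D _ => Iff.rfl, fun h D hD => (h D hD).symm, fun h h' D hD => (h D hD).trans (h' D hD)⟩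
      (fun g hg x y hxy D hD => by
        have := hxy (D.map g⁻¹.toEmbedding) fun Q hQ hne => by
          have h1 : Q.map g.toEmbedding ⊆ D := by
            refine hD _ (hQ.conj hg) ?_
            obtain ⟨z, hz⟩ := hne
            rw [Finset.mem_inter, Finset.mem_map_equiv] at hz
            refine ⟨g z, Finset.mem_inter.2 ⟨Finset.mem_map_of_mem _ hz.1, ?_⟩⟩
            simpa [Equiv.Perm.inv_def] using hz.2
          intro z hz
          rw [Finset.mem_map_equiv]
          simpa [Equiv.Perm.inv_def] using h1 (Finset.mem_map_of_mem _ hz)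
        simpa [Finset.mem_map_equiv, Equiv.Perm.inv_def] using this)
    rcases hrel with h | h
    · exfalso
      obtain ⟨x, hx, y, hy, hxy⟩ := Finset.one_lt_card.1 (show 1 < Q₀.card by rw [hQ₀.1]; norm_num)
      refine hxy (h x y fun D hD => ⟨fun hxD => ?_, fun hyD => ?_⟩)
      · exact hD Q₀ hQ₀ ⟨x, Finset.mem_inter.2 ⟨hx, hxD⟩⟩ hy
      · exact hD Q₀ hQ₀ ⟨y, Finset.mem_inter.2 ⟨hy, hyD⟩⟩ hx
    · obtain ⟨x, hx⟩ := hC
      exact Finset.eq_univ_iff_forall.2 fun y => (h x y C hcl).1 hx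
  have htwo : ∀ {Q Q' : Finset α}, IsQ K Q → IsQ K Q' → ∀ {x y : α}, x ∈ Q → y ∈ Q → x ∈ Q' → y ∉ Q' →
      (Q ∩ Q').card = 2 := by
    intro Q Q' hQ hQ' x y xQ yQ xQ' yQ'
    have h1 : 0 < (Q ∩ Q').card := Finset.card_pos.2 ⟨x, Finset.mem_inter.2 ⟨xQ, xQ'⟩⟩
    have h2 : (Q ∩ Q').card < Q.card :=
      Finset.card_lt_card ⟨Finset.inter_subset_left, fun h => yQ' (Finset.mem_inter.1 (h yQ)).2⟩
    obtain ⟨m, hm⟩ := hev hQ hQ'
    rw [hQ.1] at h2
    omega
  -- a second quadruple
  obtain ⟨Q₁, hQ₁, hI⟩ : ∃ Q₁, IsQ K Q₁ ∧ (Q₀ ∩ Q₁).card = 2 := by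
    obtain ⟨x, hx, y, hy, hxy⟩ := Finset.one_lt_card.1 (show 1 < Q₀.card by rw [hQ₀.1]; norm_num)
    obtain ⟨Q, hQ, hiff⟩ := hsep x y hxy
    refine ⟨Q, hQ, ?_⟩
    by_cases hxQ : x ∈ Q
    · exact htwo hQ₀ hQ hx hy hxQ fun h => hiff (iff_of_true hxQ h)
    · by_cases hyQ : y ∈ Q
      · exact htwo hQ₀ hQ hy hx hyQ hxQ
      · exact absurd (iff_of_false hxQ hyQ) hiff
  obtain ⟨a, b, hab, hR⟩ : ∃ a b, a ≠ b ∧ (Q₀ ∩ Q₁ = {a, b} ∧ ∃ R, IsQ K R ∧ a ∈ R ∧ b ∉ R) := by
    obtain ⟨a, b, hab, hI'⟩ := Finset.card_eq_two.1 hI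
    obtain ⟨R, hR, hiff⟩ := hsep a b hab
    by_cases haR : a ∈ R
    · exact ⟨a, b, hab, hI', R, hR, haR, fun h => hiff (iff_of_true haR h)⟩
    · by_cases hbR : b ∈ R
      · exact ⟨b, a, hab.symm, by rw [hI', Finset.pair_comm], R, hR, hbR, haR⟩
      · exact absurd (iff_of_false haR hbR) hiff
  obtain ⟨hI', R, hQR, haR, hbR⟩ := hR
  have haI : a ∈ Q₀ ∧ a ∈ Q₁ := Finset.mem_inter.1 (hI' ▸ Finset.mem_insert_self _ _)
  have hbI : b ∈ Q₀ ∧ b ∈ Q₁ := Finset.mem_inter.1 (hI' ▸ Finset.mem_insert_of_mem (Finset.mem_singleton_self _))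
  -- naming the points
  have key : ∀ {P : Finset α}, IsQ K P → a ∈ P → b ∈ P →
      ∃ c d, c ≠ a ∧ c ≠ b ∧ d ≠ a ∧ d ≠ b ∧ d ≠ c ∧ P = {a, b, c, d} ∧ c ∈ R ∧ d ∉ R := by
    intro P hP haP hbP
    have h2 := htwo hP hQR haP hbP haR hbR
    obtain ⟨c, hc⟩ := Finset.card_eq_one.1
      (show ((P ∩ R).erase a).card = 1 by rw [Finset.card_erase_of_mem (Finset.mem_inter.2 ⟨haP, haR⟩), h2])
    obtain ⟨hca, hcI⟩ := Finset.mem_erase.1 (hc ▸ Finset.mem_singleton_self c)
    obtain ⟨hcP, hcR⟩ := Finset.mem_inter.1 hcI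
    have hcb : c ≠ b := fun e => hbR (e ▸ hcR)
    have h3 : ((P.erase a).erase b).erase c = ((P.erase a).erase b).erase c := rfl
    obtain ⟨d, hd⟩ := Finset.card_eq_one.1 (show (((P.erase a).erase b).erase c).card = 1 by
      rw [Finset.card_erase_of_mem (Finset.mem_erase.2 ⟨hcb, Finset.mem_erase.2 ⟨hca, hcP⟩⟩),
        Finset.card_erase_of_mem (Finset.mem_erase.2 ⟨hab.symm, hbP⟩), Finset.card_erase_of_mem haP, hP.1])
    have hdm : d ∈ ((P.erase a).erase b).erase c := hd ▸ Finset.mem_singleton_self d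
    simp only [Finset.mem_erase] at hdm
    obtain ⟨hdc, hdb, hda, hdP⟩ := hdm
    refine ⟨c, d, hca, hcb, hda, hdb, hdc, ?_, hcR, fun hdR => hdc ?_⟩
    · refine (Finset.eq_of_subset_of_card_le ?_ ?_).symm
      · intro z hz
        simp only [Finset.mem_insert, Finset.mem_singleton] at hz
        rcases hz with rfl | rfl | rfl | rfl <;> assumption
      · rw [hP.1]
        simp [hab, Ne.symm hca, Ne.symm hda, Ne.symm hcb, Ne.symm hdb, Ne.symm hdc]
    · have : d ∈ (P ∩ R).erase a := Finset.mem_erase.2 ⟨hda, Finset.mem_inter.2 ⟨hdP, hdR⟩⟩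
      rw [hc, Finset.mem_singleton] at this
      exact this
  obtain ⟨c, d, hca, hcb, hda, hdb, hdc, eQ₀, hcR, hdR⟩ := key hQ₀ haI.1 hbI.1
  obtain ⟨e, f, hea, heb, hfa, hfb, hfe, eQ₁, heR, hfR⟩ := key hQ₁ haI.2 hbI.2
  have hnI : ∀ z, z ≠ a → z ≠ b → z ∈ Q₀ → z ∉ Q₁ := fun z za zb z0 z1 => by
    have : z ∈ Q₀ ∩ Q₁ := Finset.mem_inter.2 ⟨z0, z1⟩
    rw [hI'] at this
    simp [za, zb] at this
  have hce : c ≠ e := fun h => hnI c hca hcb (by rw [eQ₀]; simp) (by rw [eQ₁, h]; simp)
  have hcf : c ≠ f := fun h => hnI c hca hcb (by rw [eQ₀]; simp) (by rw [eQ₁, h]; simp)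
  have hde : d ≠ e := fun h => hnI d hda hdb (by rw [eQ₀]; simp) (by rw [eQ₁, h]; simp)
  have hdf : d ≠ f := fun h => hnI d hda hdb (by rw [eQ₀]; simp) (by rw [eQ₁, h]; simp)
  obtain ⟨g, hg⟩ := Finset.card_eq_one.1 (show (((R.erase a).erase c).erase e).card = 1 by
    rw [Finset.card_erase_of_mem (Finset.mem_erase.2 ⟨hce.symm, Finset.mem_erase.2 ⟨hea, heR⟩⟩),
      Finset.card_erase_of_mem (Finset.mem_erase.2 ⟨hca, hcR⟩), Finset.card_erase_of_mem haR, hQR.1])
  have hgm : g ∈ ((R.erase a).erase c).erase e := hg ▸ Finset.mem_singleton_self g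
  simp only [Finset.mem_erase] at hgm
  obtain ⟨hge, hgc, hga, hgR⟩ := hgm
  have hgb : g ≠ b := fun h => hbR (h ▸ hgR)
  have hgd : g ≠ d := fun h => hdR (h ▸ hgR)
  have hgf : g ≠ f := fun h => hfR (h ▸ hgR)
  have eR : R = {a, c, e, g} := by
    refine (Finset.eq_of_subset_of_card_le ?_ ?_).symm
    · intro z hz
      simp only [Finset.mem_insert, Finset.mem_singleton] at hz
      rcases hz with rfl | rfl | rfl | rfl <;> assumption
    · rw [hQR.1]
      simp [Ne.symm hca, Ne.symm hea, Ne.symm hga, hce, Ne.symm hgc, Ne.symm hge]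
  -- seven planes
  let p : Fin 7 → α := ![a, b, c, d, e, f, g]
  have hp : Function.Injective p := by
    have hnd : [a, b, c, d, e, f, g].Nodup := by
      simp [hab, Ne.symm hca, Ne.symm hda, Ne.symm hea, Ne.symm hfa, Ne.symm hga, Ne.symm hcb, Ne.symm hdb,
        Ne.symm heb, Ne.symm hfb, Ne.symm hgb, Ne.symm hdc, hce, hcf, Ne.symm hgc, hde, hdf, Ne.symm hgd,
        Ne.symm hfe, Ne.symm hge, Ne.symm hgf]
    intro i j hij
    have := List.nodup_iff_injective_get.1 hnd (a₁ := i) (a₂ := j)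
    refine this ?_
    fin_cases i <;> fin_cases j <;> exact hij
  let S7 : Finset α := Finset.univ.image p
  have hS7 : S7.card = 7 := by rw [Finset.card_image_of_injective _ hp, Finset.card_univ, Fintype.card_fin]
  obtain ⟨h, hh⟩ : ∃ h, h ∉ S7 := by
    by_contra hc
    push Not at hc
    rw [← Finset.eq_univ_iff_forall] at hc
    rw [hc, Finset.card_univ] at hS7
    omega
  -- the trace map with an arbitrary eighth point
  have mk : ∀ h, h ∉ S7 → ∃ φ : Fin 8 ↪ α, φ 7 = h ∧ (∀ i : Fin 7, φ i.castSucc = p i) ∧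
      ∀ L, Missing L → IsQ K (L.map φ) := by
    intro h hh
    have hinj : Function.Injective (Fin.snoc p h : Fin 8 → α) := by
      rw [Fin.snoc_injective_iff]
      exact ⟨hp, fun ⟨i, hi⟩ => hh (Finset.mem_image.2 ⟨i, Finset.mem_univ _, hi⟩)⟩
    let φ : Fin 8 ↪ α := ⟨_, hinj⟩
    refine ⟨φ, Fin.snoc_last (α := fun _ => α) (n := 7) h p, fun i => Fin.snoc_castSucc (α := fun _ => α) h p i, ?_⟩
    have m1 : IsQ K (Finset.map φ {0, 1, 2, 3}) := by
      convert hQ₀ using 1; rw [eQ₀]; simp [φ, Fin.snoc, p]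
    have m2 : IsQ K (Finset.map φ {0, 1, 4, 5}) := by
      convert hQ₁ using 1; rw [eQ₁]; simp [φ, Fin.snoc, p]
    have m3 : IsQ K (Finset.map φ {0, 2, 4, 6}) := by
      convert hQR using 1; rw [eR]; simp [φ, Fin.snoc, p]
    have stepφ : ∀ X Y Z : Finset (Fin 8), IsQ K (X.map φ) → IsQ K (Y.map φ) → (X ∩ Y).card = 2 →
        (X \ Y) ∪ (Y \ X) = Z → IsQ K (Z.map φ) := by
      intro X Y Z hX hY hc hZ
      have := step hX hY (by rw [← Finset.map_inter, Finset.card_map]; exact hc)
      rwa [← Finset.map_sdiff, ← Finset.map_sdiff, ← Finset.map_union, hZ] at this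
    have m4 : IsQ K (Finset.map φ {2, 3, 4, 5}) := stepφ _ _ _ m1 m2 (by decide +kernel) (by decide +kernel)
    intro L hL
    rcases missing_list L hL with rfl | rfl | rfl | rfl | rfl | rfl | rfl
    · exact m1
    · exact m2
    · exact m3
    · exact m4
    · exact stepφ _ _ _ m1 m3 (by decide +kernel) (by decide +kernel)
    · exact stepφ _ _ _ m2 m3 (by decide +kernel) (by decide +kernel)
    · exact stepφ _ _ _ m4 m3 (by decide +kernel) (by decide +kernel)
  -- the trace of a quadruple on the seven points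
  have htrace : ∀ Q, IsQ K Q → (Q ∩ S7).Nonempty → ¬ Q ⊆ S7 →
      ∃ h, h ∉ S7 ∧ ∃ φ : Fin 8 ↪ α, φ 7 = h ∧ (∀ i : Fin 7, φ i.castSucc = p i) ∧
        (∀ L, Missing L → IsQ K (L.map φ)) ∧ ∃ X, IsPlane X ∧ (7 : Fin 8) ∈ X ∧ Q = X.map φ := by
    intro Q hQ ⟨z, hz⟩ hnot
    obtain ⟨h, hhQ, hh⟩ := Finset.not_subset.1 hnot
    obtain ⟨φ, hφ7, hφp, hφ⟩ := mk h hh
    refine ⟨h, hh, φ, hφ7, hφp, hφ, ?_⟩
    let X : Finset (Fin 8) := Finset.univ.filter fun i => i ≠ 7 ∧ φ i ∈ Q
    have hX7 : (7 : Fin 8) ∉ X := by simp [X]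
    have hXQ : X.map φ ⊆ Q.erase h := by
      intro w hw
      obtain ⟨i, hi, rfl⟩ := Finset.mem_map.1 hw
      simp only [X, Finset.mem_filter] at hi
      exact Finset.mem_erase.2 ⟨fun e => hi.2.1 (φ.injective (e.trans hφ7.symm)), hi.2.2⟩
    have hX3 : X.card ≤ 3 := by
      have := Finset.card_le_card hXQ
      rw [Finset.card_map, Finset.card_erase_of_mem hhQ, hQ.1] at this
      exact this
    have hXne : X.Nonempty := by
      obtain ⟨hzQ, hz7⟩ := Finset.mem_inter.1 hz
      obtain ⟨i, -, rfl⟩ := Finset.mem_image.1 hz7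
      refine ⟨i.castSucc, ?_⟩
      simp only [X, Finset.mem_filter, Finset.mem_univ, true_and]
      exact ⟨fun e => by have := congrArg Fin.val e; simp at this; omega, (hφp i).symm ▸ hzQ⟩
    have hXev : ∀ L, Missing L → Even (X ∩ L).card := by
      intro L hL
      have : (X ∩ L).map φ = Q ∩ L.map φ := by
        ext w
        simp only [Finset.mem_map, Finset.mem_inter, X, Finset.mem_filter, Finset.mem_univ, true_and]
        constructor
        · rintro ⟨i, ⟨⟨-, h1⟩, h2⟩, rfl⟩
          exact ⟨h1, i, h2, rfl⟩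
        · rintro ⟨h1, i, h2, rfl⟩
          exact ⟨i, ⟨⟨fun e => hL.2 (e ▸ h2), h1⟩, h2⟩, rfl⟩
      rw [← Finset.card_map φ, this]
      exact hev hQ (hφ L hL)
    rcases trace_cases X hX7 (by omega) hXne hXev with hm | ⟨hX3', hpl⟩
    · have := hm.1.1
      omega
    · refine ⟨insert 7 X, hpl, Finset.mem_insert_self _ _, (Finset.eq_of_subset_of_card_le ?_ ?_).symm⟩
      · rw [Finset.map_insert, hφ7]
        exact Finset.insert_subset hhQ (hXQ.trans (Finset.erase_subset _ _))
      · rw [hQ.1, Finset.card_map, hpl.1]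
  obtain ⟨Q, hQ, hQne, hQnot⟩ : ∃ Q, IsQ K Q ∧ (Q ∩ S7).Nonempty ∧ ¬ Q ⊆ S7 := by
    by_contra hc
    push Not at hc
    have := hclosed S7 (Finset.card_pos.1 (by omega)) hc
    exact hh (this ▸ Finset.mem_univ h)
  obtain ⟨h₀, hh₀, φ, hφ7, hφp, hφ, X₀, hX₀, hX₀7, eQ⟩ := htrace Q hQ hQne hQnot
  have hplane : ∀ Z, IsPlane Z → IsQ K (Z.map φ) := by
    intro Z hZ
    by_cases h7 : (7 : Fin 8) ∈ Z
    · rcases plane_gen Z X₀ hZ hX₀ hX₀7 h7 with e | ⟨M, hM, hc, e⟩
      · exact e ▸ eQ ▸ hQ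
      · have h1 : IsQ K (X₀.map φ) := eQ ▸ hQ
        have := step h1 (hφ M hM) (by rw [← Finset.map_inter, Finset.card_map]; exact hc)
        rwa [← Finset.map_sdiff, ← Finset.map_sdiff, ← Finset.map_union, ← e] at this
    · exact hφ Z ⟨hZ, h7⟩
  let S8 : Finset α := Finset.univ.map φ
  have hS78 : S7 ⊆ S8 := by
    intro z hz
    obtain ⟨i, -, rfl⟩ := Finset.mem_image.1 hz
    rw [← hφp i]
    exact Finset.mem_map_of_mem _ (Finset.mem_univ _)
  have hS8 : S8 = Finset.univ := by
    refine hclosed S8 (by simp [S8]) fun Q' hQ' hne => ?_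
    by_cases hne7 : (Q' ∩ S7).Nonempty
    · by_cases hsub : Q' ⊆ S7
      · exact hsub.trans hS78
      · obtain ⟨h', hh', ψ, hψ7, hψp, -, X, hX, hX7, eQ'⟩ := htrace Q' hQ' hne7 hsub
        have heq : h' = h₀ := by
          by_contra hne'
          by_cases eX : X = X₀
          · have h3 : Q' ∩ Q = (X.erase 7).map φ := by
              rw [eQ', eQ, ← eX]
              ext w
              simp only [Finset.mem_inter, Finset.mem_map, Finset.mem_erase]
              constructor
              · rintro ⟨⟨i, hi, rfl⟩, j, hj, hji⟩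
                refine ⟨j, ⟨fun e => ?_, hj⟩, hji⟩
                rw [e, hφ7] at hji
                rcases Fin.eq_castSucc_or_eq_last i with ⟨i', rfl⟩ | rfl
                · exact hh₀ (hji ▸ hψp i' ▸ Finset.mem_image_of_mem _ (Finset.mem_univ _))
                · exact hne' (hψ7.symm.trans hji.symm)
              · rintro ⟨i, ⟨hi7, hi⟩, rfl⟩
                refine ⟨⟨i, hi, ?_⟩, i, hi, rfl⟩
                rcases Fin.eq_castSucc_or_eq_last i with ⟨i', rfl⟩ | rfl
                · rw [hψp, hφp]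
                · exact absurd rfl hi7
            have h4 := hev hQ' hQ
            rw [h3, Finset.card_map, Finset.card_erase_of_mem hX7, hX.1] at h4
            exact absurd h4 (by decide)
          · have h3 : Q' ∩ Q = (X.erase 7 ∩ X₀.erase 7).map φ := by
              rw [eQ', eQ]
              ext w
              simp only [Finset.mem_inter, Finset.mem_map, Finset.mem_erase]
              constructor
              · rintro ⟨⟨i, hi, rfl⟩, j, hj, hji⟩
                rcases Fin.eq_castSucc_or_eq_last i with ⟨i', rfl⟩ | rfl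
                · rcases Fin.eq_castSucc_or_eq_last j with ⟨j', rfl⟩ | rfl
                  · have : j' = i' := hp (by rw [← hφp, ← hψp]; exact hji)
                    subst this
                    exact ⟨j'.castSucc, ⟨⟨Fin.castSucc_ne_last j', hi⟩, Fin.castSucc_ne_last j', hj⟩, hji⟩
                  · exact absurd (hφ7.symm.trans (hji.trans (hψp i'))) fun e =>
                      hh₀ (e ▸ Finset.mem_image_of_mem _ (Finset.mem_univ _))
                · rcases Fin.eq_castSucc_or_eq_last j with ⟨j', rfl⟩ | rfl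
                  · exact absurd ((hφp j').symm.trans (hji.trans hψ7)) fun e =>
                      hh' (e ▸ Finset.mem_image_of_mem _ (Finset.mem_univ _))
                  · exact absurd (hψ7.symm.trans (hji.symm.trans hφ7)) hne'
              · rintro ⟨i, ⟨⟨hi7, hi⟩, -, hi'⟩, rfl⟩
                refine ⟨⟨i, hi, ?_⟩, i, hi', rfl⟩
                rcases Fin.eq_castSucc_or_eq_last i with ⟨i', rfl⟩ | rfl
                · rw [hψp, hφp]
                · exact absurd rfl hi7
            have h4 := hev hQ' hQ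
            rw [h3, Finset.card_map, plane_inter X X₀ hX hX₀ hX7 hX₀7 eX] at h4
            exact absurd h4 (by decide)
        intro z hz
        rw [eQ'] at hz
        obtain ⟨i, -, rfl⟩ := Finset.mem_map.1 hz
        rcases Fin.eq_castSucc_or_eq_last i with ⟨i', rfl⟩ | rfl
        · rw [hψp, ← hφp]; exact Finset.mem_map_of_mem _ (Finset.mem_univ _)
        · rw [show ψ (Fin.last 7) = h₀ from hψ7.trans heq, ← hφ7]
          exact Finset.mem_map_of_mem _ (Finset.mem_univ _)
    · exfalso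
      obtain ⟨z, hz⟩ := hne
      obtain ⟨hzQ, hz8⟩ := Finset.mem_inter.1 hz
      obtain ⟨i, -, rfl⟩ := Finset.mem_map.1 hz8
      have hout : ∀ j, φ j ∈ Q' → j = 7 := by
        intro j hj
        rcases Fin.eq_castSucc_or_eq_last j with ⟨j', rfl⟩ | rfl
        · exact absurd ⟨_, Finset.mem_inter.2 ⟨hφp j' ▸ hj, Finset.mem_image_of_mem _ (Finset.mem_univ _)⟩⟩ hne7
        · rfl
      have hi := hout i hzQ
      have : Q' ∩ X₀.map φ = {φ 7} := by
        ext w
        simp only [Finset.mem_inter, Finset.mem_map, Finset.mem_singleton]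
        constructor
        · rintro ⟨hw, j, -, rfl⟩
          rw [hout j hw]
        · rintro rfl
          exact ⟨hi ▸ hzQ, 7, hX₀7, rfl⟩
      have h4 := hev hQ' (eQ ▸ hQ)
      rw [this, Finset.card_singleton] at h4
      exact absurd h4 (by decide)
  have hbij : Function.Bijective φ := ⟨φ.injective, fun y => by
    obtain ⟨i, -, hi⟩ := Finset.mem_map.1 (hS8 ▸ Finset.mem_univ y : y ∈ S8)
    exact ⟨i, hi⟩⟩
  let e' : Fin 8 ≃ α := Equiv.ofBijective φ hbij
  have he' : ∀ i, e' i = φ i := fun i => rfl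
  refine ⟨e', fun c => ?_, fun k hk x y => ?_⟩
  · by_cases hc : c = 0
    · subst hc
      have : xorPerm 0 = 1 := by decide +kernel
      rw [this, show e'.permCongr (1 : Perm (Fin 8)) = 1 from Equiv.ext fun z => by simp]
      exact K.one_mem
    · obtain ⟨A, hA, hAc, hinv⟩ := split_translation c hc
      have hne : ∀ i, xr i c ≠ i := fun i e => hc (by
        have h1 := xr_self_left i c
        rw [e] at h1
        have : ∀ i : Fin 8, xr i i = 0 := by decide +kernel
        rw [← h1, this])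
      have part : ∀ B : Finset (Fin 8), IsPlane B → (∀ i ∈ B, xr i c ∈ B) →
          ∃ k ∈ K, ∀ i, k (φ i) = φ (xorOn B c i) := by
        intro B hB hBinv
        have hi : Function.Involutive (xorOn B c) := by
          intro i
          by_cases h : i ∈ B
          · simp only [xorOn, h, if_true, hBinv i h]
            exact xr_invol c i
          · simp only [xorOn, h, if_false]
        refine ⟨e'.permCongr hi.toPerm, (hplane B hB).2 _ ?_ ?_, fun i => ?_⟩
        · ext z
          obtain ⟨i, rfl⟩ := e'.surjective z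
          rw [mem_support, Equiv.permCongr_apply, Equiv.symm_apply_apply, e'.injective.ne_iff]
          rw [he', Finset.mem_map' φ]
          show xorOn B c i ≠ i ↔ _
          by_cases h : i ∈ B <;> simp [xorOn, h, hne i]
        · refine Equiv.ext fun z => ?_
          simp only [Perm.mul_apply, Equiv.permCongr_apply, Equiv.symm_apply_apply, Perm.one_apply]
          show e' (xorOn B c (xorOn B c (e'.symm z))) = z
          rw [hi, Equiv.apply_symm_apply]
        · rw [← he', ← he', Equiv.permCongr_apply, Equiv.symm_apply_apply]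
          rfl
      have hcinv : ∀ i ∈ Aᶜ, xr i c ∈ Aᶜ := fun i hi => by
        rw [Finset.mem_compl] at hi ⊢
        intro h
        have := hinv _ h
        rw [show xr (xr i c) c = i from xr_invol c i] at this
        exact hi this
      obtain ⟨k1, hk1, e1⟩ := part A hA hinv
      obtain ⟨k2, hk2, e2⟩ := part Aᶜ hAc hcinv
      convert K.mul_mem hk1 hk2 using 1
      refine Equiv.ext fun z => ?_
      obtain ⟨i, rfl⟩ := e'.surjective z
      rw [Equiv.permCongr_apply, Equiv.symm_apply_apply, Perm.mul_apply, he', he', e2, e1]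
      congr 1
      show xr i c = _
      by_cases h : i ∈ A
      · simp [xorOn, h]
      · simp [xorOn, h, Finset.mem_compl.1 (hcinv i (Finset.mem_compl.2 h))]
  · set σ : Perm (Fin 8) := e'.symm.permCongr k with hσ
    have hσa : ∀ i, σ i = e'.symm (k (e' i)) := fun i => by simp [hσ]
    show e'.symm (k (e' (xr x y))) = xr (xr (e'.symm (k (e' x))) (e'.symm (k (e' y)))) (e'.symm (k (e' 0)))
    rw [← hσa, ← hσa, ← hσa, ← hσa]
    have hσp : ∀ Z, IsPlane Z → IsPlane (Z.map σ.toEmbedding) := by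
      intro Z hZ
      refine even_planes _ (by rw [Finset.card_map]; exact hZ.1) fun L hL => ?_
      have h1 := hev ((hplane Z hZ).conj hk) (hplane L hL)
      have h2 : ((Z.map φ).map k.toEmbedding) = (Z.map σ.toEmbedding).map φ := by
        rw [Finset.map_map, Finset.map_map]
        congr 1
        ext i
        simp [← he', hσa]
      rwa [h2, ← Finset.map_inter, Finset.card_map] at h1
    have hzero : ∀ i : Fin 8, xr i 0 = i ∧ xr 0 i = i ∧ xr i i = 0 := by decide +kernel
    have hcancel : ∀ u v : Fin 8, xr (xr u v) v = u ∧ xr (xr u v) u = v := by decide +kernel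
    by_cases hx : x = 0
    · subst hx; rw [(hzero y).2.1, (hcancel _ _).2]
    by_cases hy : y = 0
    · subst hy; rw [(hzero x).1, (hcancel _ _).1]
    by_cases hxy : x = y
    · subst hxy; rw [(hzero x).2.2, (hzero _).2.2, (hzero _).2.1]
    have := hσp _ (plane_quad x y hx hy hxy)
    simp only [Finset.map_insert, Finset.map_singleton, Equiv.coe_toEmbedding] at this
    exact plane_last _ _ _ _ this

end Cfsg.Agent.S2928
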