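import Mathlib

/-!
Standard elements in a conjugate of a Sylow 2-subgroup of an alternating group.
-/

set_option autoImplicit false

namespace Cfsg.Agent.S2928

open Equiv Equiv.Perm MulAction
open scoped Pointwise

/-- The group preserving the three nested partitions of `Fin n`. -/
def nested (n : ℕ) : Subgroup (Perm (Fin n)) where
  carrier := {g | (∀ x, (g x).val / 8 = x.val / 8) ∧
    (∀ x y, x.val / 4 = y.val / 4 ↔ (g x).val / 4 = (g y).val / 4) ∧
    (∀ x y, x.val / 2 = y.val / 2 ↔ (g x).val / 2 = (g y).val / 2)}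
  one_mem' := by simp
  mul_mem' := fun {a b} ha hb => ⟨fun x => (ha.1 (b x)).trans (hb.1 x),
    fun x y => (hb.2.1 x y).trans (ha.2.1 _ _), fun x y => (hb.2.2 x y).trans (ha.2.2 _ _)⟩
  inv_mem' := fun {a} ha => by
    refine ⟨fun x => ?_, fun x y => ?_, fun x y => ?_⟩
    · have := ha.1 (a⁻¹ x); simp at this; exact this.symm
    · have := ha.2.1 (a⁻¹ x) (a⁻¹ y); simp at this; exact this.symm
    · have := ha.2.2 (a⁻¹ x) (a⁻¹ y); simp at this; exact this.symm

theorem nested_two (n : ℕ) : IsPGroup 2 (nested n) := by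
  rintro ⟨g, h8, h4, h2⟩
  refine ⟨3, ?_⟩
  have s4 : ∀ x, (g (g x)).val / 4 = x.val / 4 := fun x => by
    have := h8 x; have := h8 (g x); have := h4 x (g x)
    omega
  have i2 : ∀ x y : Fin n, x.val / 2 = y.val / 2 ↔ (g (g x)).val / 2 = (g (g y)).val / 2 :=
    fun x y => (h2 x y).trans (h2 _ _)
  have s2 : ∀ x, (g (g (g (g x)))).val / 2 = x.val / 2 := fun x => by
    have := s4 x; have := s4 (g (g x)); have := i2 x (g (g x))
    omega
  apply Subtype.ext
  refine Equiv.ext fun x => Fin.ext ?_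
  show ((g ^ 8) x).val = x.val
  have e : (g ^ 8) x = g (g (g (g (g (g (g (g x))))))) := by simp [pow_succ]
  rw [e]
  have hinj : ∀ a b : Fin n, a.val ≠ b.val → (g (g (g (g a)))).val ≠ (g (g (g (g b)))).val := fun a b h e =>
    h (congrArg Fin.val (g.injective (g.injective (g.injective (g.injective (Fin.ext e))))))
  have := s2 x; have := s2 (g (g (g (g x)))); have := hinj x (g (g (g (g x))))
  by_cases hfix : (g (g (g (g x)))).val = x.val
  · have e1 := Fin.ext hfix
    rw [e1, e1]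
  · omega

theorem swap_val {n : ℕ} (a b x : Fin n) :
    (swap a b x).val = if x.val = a.val then b.val else if x.val = b.val then a.val else x.val := by
  by_cases h1 : x = a
  · subst h1; simp
  by_cases h2 : x = b
  · subst h2
    rw [swap_apply_right, if_neg (fun e => h1 (Fin.ext e))]; simp
  rw [swap_apply_of_ne_of_ne h1 h2, if_neg (fun e => h1 (Fin.ext e)), if_neg (fun e => h2 (Fin.ext e))]

theorem ne_two {n : ℕ} {a b : Fin n} (h : a.val ≠ b.val) : a ≠ b := fun e => h (congrArg Fin.val e)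

/-- The three kinds of standard elements, inside a conjugate of the Sylow subgroup. -/
theorem standard_elements {n : ℕ} (hn : 8 ≤ n) (H : Subgroup (Perm (Fin n)))
    (hS : ∃ P : Sylow 2 ↥(alternatingGroup (Fin n)),
      ((P : Subgroup ↥(alternatingGroup (Fin n))).map (alternatingGroup (Fin n)).subtype) ≤ H) :
    ∃ c : Perm (Fin n),
      (∀ i j : ℕ, ∀ hi : 2 * i + 1 < n, ∀ hj : 2 * j + 1 < n, i ≠ j →
        swap (c ⟨2 * i, by omega⟩) (c ⟨2 * i + 1, hi⟩) * swap (c ⟨2 * j, by omega⟩) (c ⟨2 * j + 1, hj⟩) ∈ H) ∧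
      swap (c ⟨0, by omega⟩) (c ⟨2, by omega⟩) * swap (c ⟨1, by omega⟩) (c ⟨3, by omega⟩) ∈ H ∧
      swap (c ⟨0, by omega⟩) (c ⟨4, by omega⟩) * swap (c ⟨1, by omega⟩) (c ⟨5, by omega⟩) *
        (swap (c ⟨2, by omega⟩) (c ⟨6, by omega⟩) * swap (c ⟨3, by omega⟩) (c ⟨7, by omega⟩)) ∈ H := by
  haveI : Fact (Nat.Prime 2) := ⟨Nat.prime_two⟩
  obtain ⟨P, hP⟩ := hS
  obtain ⟨P₀, hP₀⟩ := (IsPGroup.comap_of_injective (nested_two n) (alternatingGroup (Fin n)).subtype
    (alternatingGroup (Fin n)).subtype_injective).exists_le_sylow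
  obtain ⟨a, ha⟩ := MulAction.exists_smul_eq (alternatingGroup (Fin n)) P₀ P
  have hmem : ∀ d : Perm (Fin n), d ∈ alternatingGroup (Fin n) → d ∈ nested n →
      (a : Perm (Fin n)) * d * (a : Perm (Fin n))⁻¹ ∈ H := by
    intro d hd hd'
    have h1 : a * (⟨d, hd⟩ : alternatingGroup (Fin n)) * a⁻¹ ∈
        ((a • P₀ : Sylow 2 (alternatingGroup (Fin n))) : Subgroup (alternatingGroup (Fin n))) := by
      rw [Sylow.coe_subgroup_smul]
      exact Subgroup.smul_mem_pointwise_smul (⟨d, hd⟩ : alternatingGroup (Fin n)) (MulAut.conj a) _ (hP₀ hd')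
    rw [ha] at h1
    exact hP ⟨_, h1, rfl⟩
  have hconj : ∀ (g : Perm (Fin n)) (x y : Fin n), g * swap x y * g⁻¹ = swap (g x) (g y) := fun g x y =>
    (Equiv.swap_apply_apply g x y).symm
  have hconj2 : ∀ (g : Perm (Fin n)) (d e : Perm (Fin n)), g * (d * e) * g⁻¹ = (g * d * g⁻¹) * (g * e * g⁻¹) :=
    fun g d e => by group
  have hsgn : ∀ {x y u v : Fin n}, x ≠ y → u ≠ v → swap x y * swap u v ∈ alternatingGroup (Fin n) :=
    fun h1 h2 => by rw [mem_alternatingGroup, map_mul, Perm.sign_swap h1, Perm.sign_swap h2]; rfl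
  refine ⟨a, fun i j hi hj hij => ?_, ?_, ?_⟩
  · have := hmem (swap (⟨2 * i, by omega⟩ : Fin n) ⟨2 * i + 1, hi⟩ * swap ⟨2 * j, by omega⟩ ⟨2 * j + 1, hj⟩)
      (hsgn (ne_two (by simp)) (ne_two (by simp))) ?_
    · rwa [hconj2, hconj, hconj] at this
    have key : ∀ (k : ℕ) (h : 2 * k + 1 < n) (x : Fin n),
        (swap (⟨2 * k, by omega⟩ : Fin n) ⟨2 * k + 1, h⟩ x).val / 2 = x.val / 2 := fun k h x => by
      rw [swap_val]; simp only; split_ifs <;> omega
    have k2 : ∀ x : Fin n, ((swap (⟨2 * i, by omega⟩ : Fin n) ⟨2 * i + 1, hi⟩ *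
        swap (⟨2 * j, by omega⟩ : Fin n) ⟨2 * j + 1, hj⟩) x).val / 2 = x.val / 2 := fun x => (key i hi _).trans (key j hj x)
    refine ⟨fun x => ?_, fun x y => ?_, fun x y => ?_⟩
    · have := k2 x; omega
    · have := k2 x; have := k2 y; omega
    · rw [k2 x, k2 y]
  · have := hmem (swap (⟨0, by omega⟩ : Fin n) ⟨2, by omega⟩ * swap ⟨1, by omega⟩ ⟨3, by omega⟩)
      (hsgn (ne_two (by simp)) (ne_two (by simp))) ?_
    · rwa [hconj2, hconj, hconj] at this
    set g := swap (⟨0, by omega⟩ : Fin n) ⟨2, by omega⟩ * swap ⟨1, by omega⟩ ⟨3, by omega⟩ with hg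
    have v : ∀ x : Fin n, (g x).val = if x.val < 2 then x.val + 2 else if x.val < 4 then x.val - 2 else x.val := fun x => by
      rw [hg, Perm.mul_apply, swap_val, swap_val]
      rcases Nat.lt_or_ge x.val 4 with h | h
      · interval_cases hx : x.val <;> norm_num
      · simp [show x.val ≠ 0 by omega, show x.val ≠ 1 by omega, show x.val ≠ 2 by omega, show x.val ≠ 3 by omega, show ¬ x.val < 2 by omega, show ¬ x.val < 4 by omega]
    refine ⟨fun x => ?_, fun x y => ?_, fun x y => ?_⟩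
    · rw [v]; split_ifs <;> omega
    · rw [v, v]; split_ifs <;> omega
    · rw [v, v]; split_ifs <;> omega
  · have := hmem (swap (⟨0, by omega⟩ : Fin n) ⟨4, by omega⟩ * swap ⟨1, by omega⟩ ⟨5, by omega⟩ *
      (swap ⟨2, by omega⟩ ⟨6, by omega⟩ * swap ⟨3, by omega⟩ ⟨7, by omega⟩))
      ((alternatingGroup (Fin n)).mul_mem (hsgn (ne_two (by simp)) (ne_two (by simp)))
        (hsgn (ne_two (by simp)) (ne_two (by simp)))) ?_
    · rwa [hconj2, hconj2, hconj2, hconj, hconj, hconj, hconj] at this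
    set g := swap (⟨0, by omega⟩ : Fin n) ⟨4, by omega⟩ * swap ⟨1, by omega⟩ ⟨5, by omega⟩ *
      (swap ⟨2, by omega⟩ ⟨6, by omega⟩ * swap ⟨3, by omega⟩ ⟨7, by omega⟩) with hg
    have v : ∀ x : Fin n, (g x).val = if x.val < 4 then x.val + 4 else if x.val < 8 then x.val - 4 else x.val := fun x => by
      simp only [hg, Perm.mul_apply, swap_val]
      rcases Nat.lt_or_ge x.val 8 with h | h
      · interval_cases hx : x.val <;> norm_num
      · simp [show x.val ≠ 0 by omega, show x.val ≠ 1 by omega, show x.val ≠ 2 by omega, show x.val ≠ 3 by omega, show x.val ≠ 4 by omega, show x.val ≠ 5 by omega, show x.val ≠ 6 by omega, show x.val ≠ 7 by omega, show ¬ x.val < 4 by omega, show ¬ x.val < 8 by omega]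
    refine ⟨fun x => ?_, fun x y => ?_, fun x y => ?_⟩
    · rw [v]; split_ifs <;> omega
    · rw [v, v]; split_ifs <;> omega
    · rw [v, v]; split_ifs <;> omega


/-- Two pigeonholes. -/
theorem pigeon {a b c a' b' c' : Prop} (h1 : a ∨ b) (h2 : a ∨ c) (h3 : b ∨ c) (h1' : a' ∨ b') (h2' : a' ∨ c')
    (h3' : b' ∨ c') : (a ∧ a') ∨ (b ∧ b') ∨ (c ∧ c') := by
  rcases h1 with h | h <;> rcases h1' with h' | h' <;> tauto

/-- Eight points in pairs exchanged by a swap. -/
theorem eight_in (P : ℕ → Prop) (e0 : P 4 ↔ P 0) (e1 : P 5 ↔ P 1) (e2 : P 6 ↔ P 2) (e3 : P 7 ↔ P 3)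
    (h02 : (P 0 ∧ P 1) ∨ (P 4 ∧ P 5)) (h13 : (P 2 ∧ P 3) ∨ (P 6 ∧ P 7)) : ∀ k < 8, P k := by
  intro k hk
  interval_cases k <;> tauto

end Cfsg.Agent.S2928
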