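import Mathlib

/-!
Primitive groups containing a Klein group with four moved points: either a three-cycle occurs or the
degree is at most eight and, in degree eight, the group is affine.
-/

set_option autoImplicit false

namespace Cfsg.Agent.S2928

open Equiv Equiv.Perm MulAction

/-- An invariant equivalence relation of a primitive group is trivial. -/
theorem prim_rel {α : Type*} {K : Subgroup (Perm α)} (hK : IsPreprimitive K α) {r : α → α → Prop}
    (hr : Equivalence r) (hinv : ∀ g ∈ K, ∀ x y, r x y → r (g x) (g y)) :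
    (∀ x y, r x y → x = y) ∨ ∀ x y, r x y := by
  have hblock : ∀ x, IsBlock K {y | r x y} := by
    intro x
    rw [isBlock_iff_smul_eq_of_mem]
    rintro ⟨g, hg⟩ a (ha : r x a) (hga : r x (g a))
    ext y
    constructor
    · rintro ⟨b, hb, rfl⟩
      exact hr.trans hga (hinv g hg _ _ (hr.trans (hr.symm ha) hb))
    · intro (hy : r x y)
      refine ⟨g⁻¹ y, ?_, by show g (g⁻¹ y) = y; simp⟩
      have h1 := hinv g⁻¹ (K.inv_mem hg) _ _ (hr.trans (hr.symm hga) hy)
      rw [show g⁻¹ (g a) = a by simp] at h1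
      exact hr.trans ha h1
  by_cases h : ∃ x y, r x y ∧ x ≠ y
  · obtain ⟨x, y, hxy, hne⟩ := h
    right
    rcases IsBlock.subsingleton_or_eq_univ (hblock x) with h1 | h1
    · exact absurd (h1 (show r x x from hr.refl x) hxy) hne
    · intro u v
      have hu : u ∈ {z | r x z} := h1 ▸ Set.mem_univ u
      have hv : v ∈ {z | r x z} := h1 ▸ Set.mem_univ v
      exact hr.trans (hr.symm hu) hv
  · push Not at h
    exact Or.inl h

variable {α : Type*} [DecidableEq α] [Fintype α]

/-- The Klein group on `Q` lies in `K`. -/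
def IsQ (K : Subgroup (Perm α)) (Q : Finset α) : Prop :=
  Q.card = 4 ∧ ∀ g : Perm α, g.support = Q → g * g = 1 → g ∈ K

variable {K : Subgroup (Perm α)}

theorem dt_support {a b c d : α} (hab : a ≠ b) (hcd : c ≠ d) (hac : a ≠ c) (had : a ≠ d) (hbc : b ≠ c)
    (hbd : b ≠ d) :
    (swap a b * swap c d).support = {a, b, c, d} ∧ (swap a b * swap c d) * (swap a b * swap c d) = 1 := by
  have hdisj : Perm.Disjoint (swap a b) (swap c d) := by
    rw [disjoint_iff_disjoint_support, support_swap hab, support_swap hcd]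
    simp [Ne.symm hac, Ne.symm had, Ne.symm hbc, Ne.symm hbd]
  refine ⟨?_, ?_⟩
  · rw [hdisj.support_mul, support_swap hab, support_swap hcd]
    ext; simp
    tauto
  · have := hdisj.commute.eq
    calc swap a b * swap c d * (swap a b * swap c d)
        = swap a b * (swap c d * swap a b) * swap c d := by simp only [mul_assoc]
      _ = swap a b * (swap a b * swap c d) * swap c d := by rw [this]
      _ = 1 := by rw [← mul_assoc, swap_mul_self, one_mul, swap_mul_self]

theorem IsQ.dt {Q : Finset α} (h : IsQ K Q) {a b c d : α} (e : Q = {a, b, c, d}) (hab : a ≠ b) (hcd : c ≠ d)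
    (hac : a ≠ c) (had : a ≠ d) (hbc : b ≠ c) (hbd : b ≠ d) : swap a b * swap c d ∈ K := by
  obtain ⟨h1, h2⟩ := dt_support hab hcd hac had hbc hbd
  exact h.2 _ (h1.trans e.symm) h2

theorem isQ_of_gens {a b c d : α} (hab : a ≠ b) (hcd : c ≠ d) (hac : a ≠ c) (had : a ≠ d) (hbc : b ≠ c)
    (hbd : b ≠ d) (h1 : swap a b * swap c d ∈ K) (h2 : swap a c * swap b d ∈ K) : IsQ K {a, b, c, d} := by
  refine ⟨by simp [hab, hac, had, hbc, hbd, hcd], fun g hs hg => ?_⟩
  have hinv : ∀ x, g (g x) = x := fun x => DFunLike.congr_fun hg x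
  have hout : ∀ x, x ≠ a → x ≠ b → x ≠ c → x ≠ d → g x = x := fun x xa xb xc xd => by
    rw [← notMem_support, hs]; simp [xa, xb, xc, xd]
  have hmem : ∀ x ∈ ({a, b, c, d} : Finset α), g x ≠ x ∧ (g x = a ∨ g x = b ∨ g x = c ∨ g x = d) := by
    intro x hx
    rw [← hs] at hx
    refine ⟨mem_support.1 hx, ?_⟩
    have h3 : g x ∈ g.support := apply_mem_support.2 hx
    rw [hs] at h3
    simpa using h3
  obtain ⟨ga, hga⟩ := hmem a (by simp)
  obtain ⟨gc, hgc⟩ := hmem c (by simp)
  obtain ⟨gb, hgb⟩ := hmem b (by simp)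
  have hac' : ∀ {x y : α}, g x = y → g y = x := fun {x y} e => e ▸ hinv x
  have htarget : ∀ {p q r s : α}, g p = q → g r = s → p ≠ r → p ≠ s → q ≠ r → q ≠ s →
      (∀ x, x ≠ p → x ≠ q → x ≠ r → x ≠ s → g x = x) → g = swap p q * swap r s := by
    intro p q r s e1 e2 pr ps qr qs ho
    refine Equiv.ext fun x => ?_
    rw [Perm.mul_apply]
    by_cases xp : x = p
    · subst xp; rw [swap_apply_of_ne_of_ne pr ps, swap_apply_left, e1]
    by_cases xq : x = q
    · subst xq; rw [swap_apply_of_ne_of_ne qr qs, swap_apply_right, hac' e1]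
    by_cases xr : x = r
    · subst xr; rw [swap_apply_left, swap_apply_of_ne_of_ne (Ne.symm ps) (Ne.symm qs), e2]
    by_cases xs : x = s
    · subst xs; rw [swap_apply_right, swap_apply_of_ne_of_ne (Ne.symm pr) (Ne.symm qr), hac' e2]
    rw [swap_apply_of_ne_of_ne xr xs, swap_apply_of_ne_of_ne xp xq, ho x xp xq xr xs]
  rcases hga with e | e | e | e
  · exact absurd e ga
  · -- `(a b)(c d)`
    have e2 : g c = d := by
      rcases hgc with f | f | f | f
      · exact absurd ((hac' f).symm.trans e) (Ne.symm hbc)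
      · exact absurd (g.injective (f.trans e.symm)) (Ne.symm hac)
      · exact absurd f gc
      · exact f
    rw [htarget e e2 hac had hbc hbd hout]
    exact h1
  · -- `(a c)(b d)`
    have e2 : g b = d := by
      rcases hgb with f | f | f | f
      · exact absurd ((hac' f).symm.trans e) hbc
      · exact absurd f gb
      · exact absurd (g.injective (f.trans e.symm)) (Ne.symm hab)
      · exact f
    rw [htarget e e2 hab had (Ne.symm hbc) hcd fun x xa xc xb xd => hout x xa xb xc xd]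
    exact h2
  · -- `(a d)(b c)`
    have e2 : g b = c := by
      rcases hgb with f | f | f | f
      · exact absurd ((hac' f).symm.trans e) hbd
      · exact absurd f gb
      · exact f
      · exact absurd (g.injective (f.trans e.symm)) (Ne.symm hab)
    have e3 : g = (swap a b * swap c d) * (swap a c * swap b d) := by
      refine Equiv.ext fun x => ?_
      simp only [Perm.mul_apply]
      by_cases xa : x = a
      · subst xa
        rw [e, swap_apply_of_ne_of_ne hab had, swap_apply_left, swap_apply_left,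
          swap_apply_of_ne_of_ne (Ne.symm had) (Ne.symm hbd)]
      by_cases xb : x = b
      · subst xb
        rw [e2, swap_apply_left, swap_apply_of_ne_of_ne (Ne.symm had) (Ne.symm hcd), swap_apply_right,
          swap_apply_of_ne_of_ne (Ne.symm hac) (Ne.symm hbc)]
      by_cases xc : x = c
      · subst xc
        rw [hac' e2, swap_apply_of_ne_of_ne (Ne.symm hbc) hcd, swap_apply_right,
          swap_apply_of_ne_of_ne hac had, swap_apply_left]
      by_cases xd : x = d
      · subst xd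
        rw [hac' e, swap_apply_right, swap_apply_of_ne_of_ne (Ne.symm hab) hbc,
          swap_apply_of_ne_of_ne hbc hbd, swap_apply_right]
      rw [swap_apply_of_ne_of_ne xb xd, swap_apply_of_ne_of_ne xa xc, swap_apply_of_ne_of_ne xc xd,
        swap_apply_of_ne_of_ne xa xb, hout x xa xb xc xd]
    rw [e3]
    exact K.mul_mem h1 h2

theorem IsQ.conj {Q : Finset α} (h : IsQ K Q) {g : Perm α} (hg : g ∈ K) : IsQ K (Q.map g.toEmbedding) := by
  refine ⟨by rw [Finset.card_map]; exact h.1, fun x hs hx => ?_⟩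
  have h1 : g⁻¹ * x * g ∈ K := by
    refine h.2 _ ?_ ?_
    · have h2 := support_conj (σ := g⁻¹) (τ := x)
      rw [inv_inv] at h2
      rw [h2, hs, Finset.map_map]
      refine Eq.trans ?_ Finset.map_refl
      congr 1
      ext y
      simp
    · calc g⁻¹ * x * g * (g⁻¹ * x * g) = g⁻¹ * (x * x) * g := by group
        _ = 1 := by rw [hx]; group
  have := K.mul_mem (K.mul_mem hg h1) (K.inv_mem hg)
  simpa [mul_assoc] using this

variable (hno : ∀ g ∈ K, ¬ IsThreeCycle g)

include hno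

/-- Two such sets meet in an even number of points. -/
theorem inter_even {Q Q' : Finset α} (h : IsQ K Q) (h' : IsQ K Q') : Even (Q ∩ Q').card := by
  have hle : (Q ∩ Q').card ≤ 4 := h.1 ▸ Finset.card_le_card Finset.inter_subset_left
  rw [Nat.even_iff]
  by_contra hodd
  have hcases : (Q ∩ Q').card = 1 ∨ (Q ∩ Q').card = 3 := by omega
  have hsd : ∀ A B : Finset α, A = (A ∩ B) ∪ (A \ B) := fun A B => (Finset.union_comm _ _).trans (Finset.sdiff_union_inter A B) |>.symm
  have hc1 := Finset.card_sdiff_add_card_inter Q Q'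
  have hc2 := Finset.card_sdiff_add_card_inter Q' Q
  rw [Finset.inter_comm Q' Q, h'.1] at hc2
  rw [h.1] at hc1
  rcases hcases with hc | hc
  · obtain ⟨a, ha⟩ := Finset.card_eq_one.1 hc
    obtain ⟨b, c, d, hbc, hbd, hcd, hQ⟩ := Finset.card_eq_three.1 (show (Q \ Q').card = 3 by omega)
    obtain ⟨e, f, g, hef, heg, hfg, hQ'⟩ := Finset.card_eq_three.1 (show (Q' \ Q).card = 3 by omega)
    have haQ : a ∈ Q ∧ a ∈ Q' := Finset.mem_inter.1 (ha ▸ Finset.mem_singleton_self a)
    have m1 : ∀ x ∈ ({b, c, d} : Finset α), x ∈ Q ∧ x ∉ Q' := fun x hx => Finset.mem_sdiff.1 (hQ ▸ hx)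
    have m2 : ∀ x ∈ ({e, f, g} : Finset α), x ∈ Q' ∧ x ∉ Q := fun x hx => Finset.mem_sdiff.1 (hQ' ▸ hx)
    have eQ : Q = {a, b, c, d} := by rw [hsd Q Q', ha, hQ]; ext; simp; try tauto
    have eQ' : Q' = {a, e, f, g} := by rw [hsd Q' Q, Finset.inter_comm, ha, hQ']; ext; simp; try tauto
    obtain ⟨bQ, bQ'⟩ := m1 b (by simp)
    obtain ⟨cQ, cQ'⟩ := m1 c (by simp)
    obtain ⟨dQ, dQ'⟩ := m1 d (by simp)
    obtain ⟨eQ2, eQ1⟩ := m2 e (by simp)
    obtain ⟨fQ2, fQ1⟩ := m2 f (by simp)
    obtain ⟨gQ2, gQ1⟩ := m2 g (by simp)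
    have hab : a ≠ b := fun he => bQ' (he ▸ haQ.2)
    have hac : a ≠ c := fun he => cQ' (he ▸ haQ.2)
    have had : a ≠ d := fun he => dQ' (he ▸ haQ.2)
    have hae : a ≠ e := fun he => eQ1 (he ▸ haQ.1)
    have haf : a ≠ f := fun he => fQ1 (he ▸ haQ.1)
    have hag : a ≠ g := fun he => gQ1 (he ▸ haQ.1)
    have cross : ∀ {x y : α}, x ∈ Q → y ∉ Q → x ≠ y := fun hx hy he => hy (he ▸ hx)
    have k1 := h.dt eQ hab hcd hac had hbc hbd
    have k2 := h'.dt eQ' hae hfg haf hag hef heg
    have hw := K.mul_mem (K.mul_mem (K.mul_mem k1 k2) k1) k2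
    have h3 := isThreeCycle_swap_mul_swap_same hab hae (cross bQ eQ1)
    refine hno _ hw ?_
    set p := swap a b
    set q := swap c d
    set r := swap a e
    set s := swap f g
    have dj : ∀ {x y u v : α}, x ≠ u → x ≠ v → y ≠ u → y ≠ v → Commute (swap x y) (swap u v) := by
      intro x y u v xu xv yu yv
      refine Perm.Disjoint.commute fun z => ?_
      by_cases hx : z = x
      · exact Or.inr (swap_apply_of_ne_of_ne (hx ▸ xu) (hx ▸ xv))
      by_cases hy : z = y
      · exact Or.inr (swap_apply_of_ne_of_ne (hy ▸ yu) (hy ▸ yv))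
      exact Or.inl (swap_apply_of_ne_of_ne hx hy)
    have qr : Commute q r := dj (Ne.symm hac) (cross cQ eQ1) (Ne.symm had) (cross dQ eQ1)
    have qp : Commute q p := dj (Ne.symm hac) (Ne.symm hbc) (Ne.symm had) (Ne.symm hbd)
    have qs : Commute q s := dj (cross cQ fQ1) (cross cQ gQ1) (cross dQ fQ1) (cross dQ gQ1)
    have sp : Commute s p := dj (Ne.symm haf) (cross bQ fQ1).symm (Ne.symm hag) (cross bQ gQ1).symm
    have sr : Commute s r := dj (Ne.symm haf) (Ne.symm hef) (Ne.symm hag) (Ne.symm heg)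
    have e1 : p * q * (r * s) * (p * q) * (r * s) = (p * r) * (p * r) * ((q * q) * (s * s)) := by
      calc p * q * (r * s) * (p * q) * (r * s) = p * (q * r) * (s * p) * q * (r * s) := by simp only [mul_assoc]
        _ = p * r * (q * p) * (s * q) * (r * s) := by rw [qr.eq, sp.eq]; simp only [mul_assoc]
        _ = p * r * p * q * q * (s * r) * s := by rw [qp.eq, ← qs.eq]; simp only [mul_assoc]
        _ = p * r * p * ((q * q) * r) * (s * s) := by rw [sr.eq]; simp only [mul_assoc]
        _ = _ := by rw [swap_mul_self, one_mul, one_mul]; simp only [mul_assoc]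
    rw [e1, swap_mul_self, swap_mul_self, mul_one, mul_one]
    exact h3.isThreeCycle_sq
  · obtain ⟨a, b, c, hab, hac, hbc, habc⟩ := Finset.card_eq_three.1 hc
    obtain ⟨d, hd⟩ := Finset.card_eq_one.1 (show (Q \ Q').card = 1 by omega)
    obtain ⟨e, he⟩ := Finset.card_eq_one.1 (show (Q' \ Q).card = 1 by omega)
    have m0 : ∀ x ∈ ({a, b, c} : Finset α), x ∈ Q ∧ x ∈ Q' := fun x hx => Finset.mem_inter.1 (habc ▸ hx)
    obtain ⟨dQ, dQ'⟩ := Finset.mem_sdiff.1 (hd ▸ Finset.mem_singleton_self d)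
    obtain ⟨eQ2, eQ1⟩ := Finset.mem_sdiff.1 (he ▸ Finset.mem_singleton_self e)
    obtain ⟨aQ, aQ'⟩ := m0 a (by simp)
    obtain ⟨bQ, bQ'⟩ := m0 b (by simp)
    obtain ⟨cQ, cQ'⟩ := m0 c (by simp)
    have eQ : Q = {a, b, c, d} := by rw [hsd Q Q', habc, hd]; ext; simp; try tauto
    have eQ' : Q' = {a, b, c, e} := by rw [hsd Q' Q, Finset.inter_comm, habc, he]; ext; simp; try tauto
    have cross : ∀ {x y : α} {R : Finset α}, x ∈ R → y ∉ R → x ≠ y := fun hx hy hxy => hy (hxy ▸ hx)
    have k1 := h.dt eQ hab (cross cQ' dQ') hac (cross aQ' dQ') hbc (cross bQ' dQ')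
    have k2 := h'.dt eQ' hab (cross cQ eQ1) hac (cross aQ eQ1) hbc (cross bQ eQ1)
    have hw := K.mul_mem k1 k2
    refine hno _ hw ?_
    have hcomm : Commute (swap a b) (swap c d) := by
      refine Perm.Disjoint.commute ?_
      rw [disjoint_iff_disjoint_support, support_swap hab, support_swap (cross cQ' dQ')]
      simp [Ne.symm hac, Ne.symm hbc, (cross aQ' dQ').symm, (cross bQ' dQ').symm]
    have : swap a b * swap c d * (swap a b * swap c e) = swap c d * swap c e := by
      rw [hcomm.eq, mul_assoc, ← mul_assoc (swap a b), swap_mul_self, one_mul]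
    rw [this]
    exact isThreeCycle_swap_mul_swap_same (cross cQ' dQ') (cross cQ eQ1) (cross dQ eQ1)

omit hno in
/-- The symmetric difference of two such sets meeting in two points is such a set. -/
theorem step {Q Q' : Finset α} (h : IsQ K Q) (h' : IsQ K Q') (hc : (Q ∩ Q').card = 2) :
    IsQ K ((Q \ Q') ∪ (Q' \ Q)) := by
  obtain ⟨a, b, hab, hI⟩ := Finset.card_eq_two.1 hc
  have hc1 := Finset.card_sdiff_add_card_inter Q Q'
  have hc2 := Finset.card_sdiff_add_card_inter Q' Q
  rw [Finset.inter_comm Q' Q, h'.1] at hc2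
  rw [h.1] at hc1
  obtain ⟨c, d, hcd, hQ⟩ := Finset.card_eq_two.1 (show (Q \ Q').card = 2 by omega)
  obtain ⟨e, f, hef, hQ'⟩ := Finset.card_eq_two.1 (show (Q' \ Q).card = 2 by omega)
  have m0 : ∀ x ∈ ({a, b} : Finset α), x ∈ Q ∧ x ∈ Q' := fun x hx => Finset.mem_inter.1 (hI ▸ hx)
  have m1 : ∀ x ∈ ({c, d} : Finset α), x ∈ Q ∧ x ∉ Q' := fun x hx => Finset.mem_sdiff.1 (hQ ▸ hx)
  have m2 : ∀ x ∈ ({e, f} : Finset α), x ∈ Q' ∧ x ∉ Q := fun x hx => Finset.mem_sdiff.1 (hQ' ▸ hx)
  obtain ⟨aQ, aQ'⟩ := m0 a (by simp)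
  obtain ⟨bQ, bQ'⟩ := m0 b (by simp)
  obtain ⟨cQ, cQ'⟩ := m1 c (by simp)
  obtain ⟨dQ, dQ'⟩ := m1 d (by simp)
  obtain ⟨eQ2, eQ1⟩ := m2 e (by simp)
  obtain ⟨fQ2, fQ1⟩ := m2 f (by simp)
  have cross : ∀ {x y : α} {R : Finset α}, x ∈ R → y ∉ R → x ≠ y := fun hx hy hxy => hy (hxy ▸ hx)
  have eQ : Q = {a, c, b, d} := by
    rw [← Finset.sdiff_union_inter Q Q', hI, hQ]; ext; simp; tauto
  have eQ' : Q' = {a, b, e, f} := by
    rw [← Finset.sdiff_union_inter Q' Q, Finset.inter_comm, hI, hQ']; ext; simp; tauto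
  have hg := h.dt eQ (cross aQ' cQ') (cross bQ' dQ') hab (cross aQ' dQ') (cross bQ' cQ').symm hcd
  have h2 := h'.conj hg
  have e3 : Q'.map (swap a c * swap b d).toEmbedding = (Q \ Q') ∪ (Q' \ Q) := by
    rw [hQ, hQ', eQ']
    simp only [Finset.map_insert, Finset.map_singleton, Equiv.coe_toEmbedding, Perm.mul_apply]
    rw [swap_apply_of_ne_of_ne hab (cross aQ' dQ'), swap_apply_left, swap_apply_left,
      swap_apply_of_ne_of_ne (cross aQ' dQ').symm hcd.symm,
      swap_apply_of_ne_of_ne (cross bQ eQ1).symm (cross dQ eQ1).symm,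
      swap_apply_of_ne_of_ne (cross aQ eQ1).symm (cross cQ eQ1).symm,
      swap_apply_of_ne_of_ne (cross bQ fQ1).symm (cross dQ fQ1).symm,
      swap_apply_of_ne_of_ne (cross aQ fQ1).symm (cross cQ fQ1).symm]
    ext; simp; tauto
  exact e3 ▸ h2

end Cfsg.Agent.S2928
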